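import Groth.Agent.Models.H74.PicInj
import Groth.Agent.Etcore.PicTors

/-!
# Full `n`-torsion of the Picard group of a curve after a finite Galois extension

`f : C ⟶ Spec K` a smooth proper curve with `H⁰(C, O_C) = K`, genus `g`, `n` invertible in `K`.
* `card_torsion_sepClosed`: `#Pic(C)[n] = n^(2g)` for `K` separably closed;
* `exists_galois`: there is a finite Galois extension `K'/K` with `#Pic(C_{K'})[n] = n^(2g)`.
-/

set_option autoImplicit false
universe u
open CategoryTheory CategoryTheory.Limits AlgebraicGeometry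

namespace Groth.Agent.Models.H74.PicTorsGalois

open Grpsch.PicGrp PicInj VarietyA.PicLimitAlg Pi1A.FGLimit

theorem card_torsion_sepClosed {S : Type u} [Field S] [IsSepClosed S] {C : Scheme.{u}}
    (f : C ⟶ Spec (CommRingCat.of S)) (hC : Curve.IsSmoothProperCurve S C f) [IsIso f.appTop]
    (n : ℕ) (hn : (n : S) ≠ 0) :
    Nat.card {c : Pic C // c ^ n = 1} = n ^ (2 * Models.curveGenus S C f) := by
  let Ω := AlgebraicClosure S
  have hpb := IsPullback.of_hasPullback f (Spec.map (CommRingCat.ofHom (algebraMap S Ω)))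
  have hC' := CurveBC.isSmoothProperCurve f hpb hC
  have hpr : IsProper f := hC.1
  have hn' : (n : Ω) ≠ 0 := by
    rw [← map_natCast (algebraMap S Ω) n]
    exact (map_ne_zero (algebraMap S Ω)).mpr hn
  rw [card_eq _ (pull_injective f hpb) n (exists_pull_of_purelyInseparable f hpb n hn),
    ← CurveBC.curveGenus_eq f hpb]
  let _ : (pullback f (Spec.map (CommRingCat.ofHom (algebraMap S Ω)))).Over
      (Spec (CommRingCat.of Ω)) := ⟨pullback.snd _ _⟩
  obtain ⟨h1, h2, h3, h4⟩ := hC'
  exact Etcore.PicTors.card_torsion _ (pullback.snd f (Spec.map (CommRingCat.ofHom (algebraMap S Ω))))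
    h4 rfl n hn'

section

variable {K : Type u} [Field K] {C : Scheme.{u}} (f : C ⟶ Spec (CommRingCat.of K))

theorem isPullback_bcMap {A B : Type u} [CommRing A] [CommRing B] [Algebra K A] [Algebra K B]
    (φ : A →ₐ[K] B) :
    IsPullback (bcMap f φ) (pullback.snd f (toBase K B)) (pullback.snd f (toBase K A))
      (Spec.map (CommRingCat.ofHom φ.toRingHom)) := by
  have h : CommRingCat.ofHom (algebraMap K B) =
      CommRingCat.ofHom (algebraMap K A) ≫ CommRingCat.ofHom φ.toRingHom := by
    ext x
    exact (φ.commutes x).symm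
  refine IsPullback.of_right (h₁₂ := pullback.fst f (toBase K A)) (h₂₂ := toBase K A) (v₁₃ := f) ?_ ?_
    (IsPullback.of_hasPullback _ _)
  · have h1 : bcMap f φ ≫ pullback.fst f (toBase K A) = pullback.fst f (toBase K B) :=
      pullback.lift_fst _ _ _
    have h2 : Spec.map (CommRingCat.ofHom φ.toRingHom) ≫ toBase K A = toBase K B := by
      unfold toBase
      rw [h, Spec.map_comp]
    rw [h1, h2]
    exact IsPullback.of_hasPullback _ _
  · exact pullback.lift_snd _ _ _

theorem bcMap_comp {A B D : Type u} [CommRing A] [CommRing B] [CommRing D] [Algebra K A] [Algebra K B]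
    [Algebra K D] (φ : A →ₐ[K] B) (ψ : B →ₐ[K] D) :
    bcMap f ψ ≫ bcMap f φ = bcMap f (ψ.comp φ) := by
  apply pullback.hom_ext
  · rw [Category.assoc, pullback.lift_fst, pullback.lift_fst, pullback.lift_fst]
  · rw [Category.assoc, pullback.lift_snd, pullback.lift_snd, pullback.lift_snd_assoc, Category.assoc,
      ← Spec.map_comp]
    rfl

theorem exists_galois (hC : Curve.IsSmoothProperCurve K C f) [IsIso f.appTop]
    (n : ℕ) (hn : (n : K) ≠ 0) :
    ∃ (K' : Type u) (_ : Field K') (_ : Algebra K K') (_ : FiniteDimensional K K') (_ : IsGalois K K'),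
      Nat.card {c : Pic (pullback f (Spec.map (CommRingCat.ofHom (algebraMap K K')))) // c ^ n = 1} =
        n ^ (2 * Models.curveGenus K C f) := by
  classical
  let S := SeparableClosure K
  have hpr : IsProper f := hC.1
  have hpb := IsPullback.of_hasPullback f (Spec.map (CommRingCat.ofHom (algebraMap K S)))
  have hCS := CurveBC.isSmoothProperCurve f hpb hC
  have hHS := CurveBC.isIso_appTop f hpb
  have hnS : (n : S) ≠ 0 := by
    rw [← map_natCast (algebraMap K S) n]
    exact (map_ne_zero (algebraMap K S)).mpr hn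
  have hcard := card_torsion_sepClosed (pullback.snd f (Spec.map (CommRingCat.ofHom (algebraMap K S))))
    hCS n hnS
  rw [CurveBC.curveGenus_eq f hpb] at hcard
  have hn0 : n ≠ 0 := fun h => hn (by rw [h, Nat.cast_zero])
  have hfin : Finite {c : Pic (pullback f (toBase K S)) // c ^ n = 1} :=
    Nat.finite_of_card_ne_zero (by rw [hcard]; exact pow_ne_zero _ hn0)
  -- every torsion class comes from a finitely generated subalgebra
  have key : ∀ c : {c : Pic (pullback f (toBase K S)) // c ^ n = 1}, ∃ (F : Finset S)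
      (b : Pic (pullback f (toBase K (Algebra.adjoin K (F : Set S))))),
      pull (bcMap f (Algebra.adjoin K (F : Set S)).val) b = c.1 := by
    rintro ⟨c, -⟩
    obtain ⟨M, hM, rfl⟩ := exists_mk c
    obtain ⟨F, N, hN, ⟨φ⟩⟩ := exists_adjoin_pullback_iso f M hM
    exact ⟨F, mk N hN, mk_congr φ⟩
  choose F b hb using key
  have := Fintype.ofFinite {c : Pic (pullback f (toBase K S)) // c ^ n = 1}
  let G : Finset S := Finset.univ.biUnion F
  let E := FiniteGaloisIntermediateField.adjoin K (G : Set S)
  refine ⟨E, inferInstance, inferInstance, inferInstance, inferInstance, ?_⟩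
  have hpbE := isPullback_bcMap f E.toIntermediateField.val
  have hpbE0 := IsPullback.of_hasPullback f (Spec.map (CommRingCat.ofHom (algebraMap K E)))
  have hHE := CurveBC.isIso_appTop f hpbE0
  rw [← hcard]
  refine card_eq (bcMap f E.toIntermediateField.val)
    (pull_injective (L := S) (pullback.snd f (toBase K E)) (f' := pullback.snd f (toBase K S)) hpbE) n
    (fun c hc => ?_)
  have hle : Algebra.adjoin K (F ⟨c, hc⟩ : Set S) ≤ E.toIntermediateField.toSubalgebra := by
    rw [Algebra.adjoin_le_iff]
    intro x hx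
    apply FiniteGaloisIntermediateField.subset_adjoin K (G : Set S)
    exact Finset.mem_coe.mpr (Finset.mem_biUnion.mpr ⟨⟨c, hc⟩, Finset.mem_univ _, hx⟩)
  refine ⟨pull (bcMap f (Subalgebra.inclusion hle)) (b ⟨c, hc⟩), ?_⟩
  rw [← pull_comp]
  have h1 := bcMap_comp f (Subalgebra.inclusion hle) E.toIntermediateField.val
  have h2 : E.toIntermediateField.val.comp (Subalgebra.inclusion hle) =
      (Algebra.adjoin K (F ⟨c, hc⟩ : Set S)).val := rfl
  rw [h2] at h1
  have h3 : bcMap f E.toIntermediateField.val ≫ bcMap f (Subalgebra.inclusion hle) =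
      bcMap f (Algebra.adjoin K (F ⟨c, hc⟩ : Set S)).val := h1
  rw [h3]
  exact hb ⟨c, hc⟩

end

end Groth.Agent.Models.H74.PicTorsGalois
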