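import Groth.Agent.Models.H74.CohSeq
import Mathlib.AlgebraicGeometry.Morphisms.QuasiFinite

/-!
# The coherent side of the Artin–Winters count of a reduced curve

`Z` reduced connected proper over an algebraically closed field, `ν : Z' → Z` finite, an isomorphism over the
dense open `U`. With `s = #(Z ∖ U)`, `b = #ν⁻¹(Z ∖ U)`:
`1 + h¹(Z') + b ≤ h¹(Z) + h⁰(Z') + s`, and in the case of equality every function on `Z'` over an open `V` of `Z`
which vanishes at all points over `V ∖ U` comes from `Z`.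
-/

set_option autoImplicit false
universe u
open CategoryTheory CategoryTheory.Limits AlgebraicGeometry Opposite TopologicalSpace Module

namespace Groth.Agent.Models.H74.CohLin

open Groth.Agent.CurvesB EvIdeal CohSeq

theorem isClosed_singleton_of_finite {Z Z' : Scheme.{u}} (ν : Z' ⟶ Z) [IsFinite ν] (y : Z')
    (h : IsClosed ({ν y} : Set Z)) : IsClosed ({y} : Set Z') :=
  isClosed_of_subset_discrete_closed (Set.singleton_subset_iff.mpr (show y ∈ ν ⁻¹' {ν y} from rfl))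
    (ν.isDiscrete_preimage_singleton (ν y)) (h.preimage ν.continuous)

section Linear

variable {k : Type u} [Field k] {Z Z' : Scheme.{u}} (ν : Z' ⟶ Z) (f : Z ⟶ Spec (CommRingCat.of k))

/-- sections over `V` as a `k`-algebra -/
noncomputable abbrev algSec (f : Z ⟶ Spec (CommRingCat.of k)) (V : Z.Opens) : Algebra k Γ(Z, V) := (str f V).toAlgebra

/-- pull back of functions as a homomorphism of `k`-algebras -/
noncomputable def φ (V : Z.Opens) :
    letI := algSec f V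
    letI := algSec (ν ≫ f) (ν ⁻¹ᵁ V)
    Γ(Z, V) →ₐ[k] Γ(Z', ν ⁻¹ᵁ V) :=
  letI := algSec f V
  letI := algSec (ν ≫ f) (ν ⁻¹ᵁ V)
  { (ν.app V).hom with commutes' := fun c => app_str ν f V c }

/-- sections of a module as a vector space -/
noncomputable abbrev modSec (F : Z.Modules) (f : Z ⟶ Spec (CommRingCat.of k)) (V : Z.Opens) : Module k Γ(F, V) :=
  Module.compHom _ (str f V)

variable {ν} {F : Z.Modules} (π : (Coh.push ν).obj (Coh.structureModule Z') ⟶ F)

/-- the `k`-linear projection on sections -/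
noncomputable def qLin (V : Z.Opens) :
    letI := algSec (ν ≫ f) (ν ⁻¹ᵁ V)
    letI := modSec F f V
    Γ(Z', ν ⁻¹ᵁ V) →ₗ[k] Γ(F, V) :=
  letI := algSec (ν ≫ f) (ν ⁻¹ᵁ V)
  letI := modSec F f V
  { q π V with
    map_smul' := fun c b => by
      change q π V (str (ν ≫ f) (ν ⁻¹ᵁ V) c * b) = str f V c • q π V b
      rw [← app_str ν f V c]
      exact (CohqB.FiniteType2.appLinear π V).map_smul (str f V c) b }

/-- restriction of sections of the cokernel -/
noncomputable def resLin (V : Z.Opens) :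
    letI := modSec F f ⊤
    letI := modSec F f V
    Γ(F, ⊤) →ₗ[k] Γ(F, V) :=
  letI := modSec F f ⊤
  letI := modSec F f V
  { (F.presheaf.map (homOfLE (le_top (a := V))).op).hom with
    map_smul' := fun c b => by
      change F.presheaf.map (homOfLE (le_top (a := V))).op (str f ⊤ c • b) =
        str f V c • F.presheaf.map (homOfLE (le_top (a := V))).op b
      rw [← str_res f (homOfLE (le_top (a := V))) c]
      exact Scheme.Modules.map_smul _ _ _ _ }

section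

variable {π} {w : ClSub.unitToPush ν ≫ π = 0} (hs : (ShortComplex.mk (ClSub.unitToPush ν) π w).ShortExact)

include hs in
theorem ker_qLin (V : Z.Opens) :
    letI := algSec f V
    letI := algSec (ν ≫ f) (ν ⁻¹ᵁ V)
    letI := modSec F f V
    LinearMap.ker (qLin f π V) = LinearMap.range (φ ν f V).toLinearMap := by
  let _ := algSec f V
  let _ := algSec (ν ≫ f) (ν ⁻¹ᵁ V)
  let _ := modSec F f V
  exact Submodule.ext fun b => q_eq_zero_iff hs V b

variable (U : Z.Opens) [IsIso (ν ∣_ U)]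

include hs in
/-- `F(Z) ≃ B / A` for an affine open `V` containing the complement of `U`. -/
theorem nonempty_equiv (V : Z.Opens) (hV : IsAffineOpen V) (hVU : V ⊔ U = ⊤) :
    letI := algSec f V
    letI := algSec (ν ≫ f) (ν ⁻¹ᵁ V)
    letI := modSec F f ⊤
    Nonempty ((Γ(Z', ν ⁻¹ᵁ V) ⧸ LinearMap.range (φ ν f V).toLinearMap) ≃ₗ[k] Γ(F, ⊤)) := by
  let _ := algSec f V
  let _ := algSec (ν ≫ f) (ν ⁻¹ᵁ V)
  let _ := modSec F f ⊤
  let _ := modSec F f V
  have hq : Function.Surjective (qLin f π V) := q_surjective hs hV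
  have hr : Function.Bijective (resLin (F := F) f V) := res_bijective hs U V hVU
  exact ⟨(Submodule.quotEquivOfEq _ _ (ker_qLin f hs V).symm).trans
    (((qLin f π V).quotKerEquivOfSurjective hq).trans (LinearEquiv.ofBijective (resLin (F := F) f V) hr).symm)⟩

end

end Linear

section HH

variable (k : Type u) [Field k] {Z Z' : Scheme.{u}} [Z.Over (Spec (CommRingCat.of k))] {ν : Z' ⟶ Z}

theorem gl_eq (c : k) : HZero.gl k Z c = str (Z ↘ Spec (CommRingCat.of k)) ⊤ c := by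
  change Coh.toGlobal (Z ↘ Spec (CommRingCat.of k)) c =
    Z.presheaf.map (homOfLE (le_top (a := (⊤ : Z.Opens)))).op (Coh.toGlobal (Z ↘ Spec (CommRingCat.of k)) c)
  have : (homOfLE (le_top (a := (⊤ : Z.Opens)))).op = 𝟙 (op (⊤ : Z.Opens)) := rfl
  rw [this, Z.presheaf.map_id]
  rfl

theorem modSec_eq (F : Z.Modules) : modSec F (Z ↘ Spec (CommRingCat.of k)) ⊤ = HZero.moduleΓ k F := by
  have h : str (Z ↘ Spec (CommRingCat.of k)) ⊤ = HZero.gl k Z := RingHom.ext fun c => (gl_eq k c).symm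
  unfold modSec HZero.moduleΓ
  rw [h]

/-- `H⁰(Z, F) ≃ F(Z)`. -/
theorem nonempty_equivHH (F : Z.Modules) :
    letI := modSec F (Z ↘ Spec (CommRingCat.of k)) ⊤
    Nonempty (Coh.HH Z F 0 ≃ₗ[k] Γ(F, ⊤)) := by
  rw [modSec_eq]
  exact ⟨HZero.equivLin k F⟩

theorem finrank_HH_zero {F : Z.Modules} {π : (Coh.push ν).obj (Coh.structureModule Z') ⟶ F}
    {w : ClSub.unitToPush ν ≫ π = 0} (hs : (ShortComplex.mk (ClSub.unitToPush ν) π w).ShortExact)
    (U : Z.Opens) [IsIso (ν ∣_ U)] (V : Z.Opens) (hV : IsAffineOpen V) (hVU : V ⊔ U = ⊤) [hfin : Module.Finite k (Coh.HH Z F 0)] :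
    letI := algSec (Z ↘ Spec (CommRingCat.of k)) V
    letI := algSec (ν ≫ (Z ↘ Spec (CommRingCat.of k))) (ν ⁻¹ᵁ V)
    Module.Finite k (Γ(Z', ν ⁻¹ᵁ V) ⧸ LinearMap.range (φ ν (Z ↘ Spec (CommRingCat.of k)) V).toLinearMap) ∧
    finrank k (Coh.HH Z F 0) =
      finrank k (Γ(Z', ν ⁻¹ᵁ V) ⧸ LinearMap.range (φ ν (Z ↘ Spec (CommRingCat.of k)) V).toLinearMap) := by
  let _ := algSec (Z ↘ Spec (CommRingCat.of k)) V
  let _ := algSec (ν ≫ (Z ↘ Spec (CommRingCat.of k))) (ν ⁻¹ᵁ V)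
  let _ := modSec F (Z ↘ Spec (CommRingCat.of k)) ⊤
  obtain ⟨e⟩ := nonempty_equiv (Z ↘ Spec (CommRingCat.of k)) hs U V hV hVU
  obtain ⟨e1⟩ := nonempty_equivHH k F
  let e' := e1.trans e.symm
  exact ⟨Module.Finite.equiv e', e'.finrank_eq⟩

end HH

section Count

variable {k : Type u} [Field k] [IsAlgClosed k] {Z Z' : Scheme.{u}} (ν : Z' ⟶ Z) [IsFinite ν]
  (f : Z ⟶ Spec (CommRingCat.of k)) [LocallyOfFiniteType f]

/-- The counting inequality over an affine open containing the complement of `U`. -/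
theorem count [IsNoetherian Z] (hdim : topologicalKrullDim Z ≤ 1) (U : Z.Opens) (hU : Dense (U : Set Z))
    (V : Z.Opens) (hV : IsAffineOpen V) (hVU : V ⊔ U = ⊤) :
    letI := algSec f V
    letI := algSec (ν ≫ f) (ν ⁻¹ᵁ V)
    Module.Finite k (Γ(Z', ν ⁻¹ᵁ V) ⧸ LinearMap.range (φ ν f V).toLinearMap) →
    Nat.card (ν ⁻¹' (U : Set Z)ᶜ : Set Z') ≤
      Nat.card ((U : Set Z)ᶜ : Set Z) + finrank k (Γ(Z', ν ⁻¹ᵁ V) ⧸ LinearMap.range (φ ν f V).toLinearMap) ∧
    (Nat.card ((U : Set Z)ᶜ : Set Z) + finrank k (Γ(Z', ν ⁻¹ᵁ V) ⧸ LinearMap.range (φ ν f V).toLinearMap) ≤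
      Nat.card (ν ⁻¹' (U : Set Z)ᶜ : Set Z') →
      ∀ b : Γ(Z', ν ⁻¹ᵁ V), (∀ (y : Z') (hy : ν y ∈ V), ν y ∉ U → b ∈ evId (ν ⁻¹ᵁ V) y hy) →
        ∃ a : Γ(Z, V), ν.app V a = b) := by
  let _ := algSec f V
  let _ := algSec (ν ≫ f) (ν ⁻¹ᵁ V)
  intro hfin
  have hfS : ((U : Set Z)ᶜ).Finite := VarietyA.Dim1Top.finite_compl hdim U hU
  have hfT : (ν ⁻¹' (U : Set Z)ᶜ).Finite := ν.finite_preimage hfS
  have : Finite ((U : Set Z)ᶜ : Set Z) := hfS
  have : Finite (ν ⁻¹' (U : Set Z)ᶜ : Set Z') := hfT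
  have hSV : ∀ s : Z, s ∉ U → s ∈ V := fun s hs => by
    have : s ∈ V ⊔ U := by rw [hVU]; trivial
    exact this.resolve_right hs
  have hScl : ∀ s : Z, s ∉ U → IsClosed ({s} : Set Z) := fun s hs =>
    (VarietyA.Dim1Top.point_of_compl hdim U hU s hs).1
  have hTcl : ∀ t : Z', ν t ∉ U → IsClosed ({t} : Set Z') := fun t ht =>
    isClosed_singleton_of_finite ν t (hScl _ ht)
  let m : ((U : Set Z)ᶜ : Set Z) → Ideal Γ(Z, V) := fun s => evId V s.1 (hSV _ s.2)
  let n : (ν ⁻¹' (U : Set Z)ᶜ : Set Z') → Ideal Γ(Z', ν ⁻¹ᵁ V) := fun t => evId (ν ⁻¹ᵁ V) t.1 (hSV _ t.2)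
  have key := CountAlg.card_le_and_mem_range (φ ν f V) m n
    (fun t => isMaximal_evId (ν ≫ f) _ _ _ (hTcl _ t.2))
    (fun s x => by
      obtain ⟨x, rfl⟩ := Ideal.Quotient.mk_surjective x
      obtain ⟨c, hc⟩ := exists_sub_str_mem f V s.1 (hSV _ s.2) (hScl _ s.2) x
      refine ⟨c, ?_⟩
      symm
      exact (Ideal.Quotient.mk_eq_mk_iff_sub_mem _ _).mpr hc)
    (fun t x => by
      obtain ⟨x, rfl⟩ := Ideal.Quotient.mk_surjective x
      obtain ⟨c, hc⟩ := exists_sub_str_mem (ν ≫ f) (ν ⁻¹ᵁ V) t.1 (hSV _ t.2) (hTcl _ t.2) x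
      refine ⟨c, ?_⟩
      symm
      exact (Ideal.Quotient.mk_eq_mk_iff_sub_mem _ _).mpr hc)
    (fun t t' h => Subtype.ext (evId_injective (hV.preimage ν) _ _ h))
    (fun t => ⟨⟨ν t.1, t.2⟩, fun a ha => (app_mem_evId_iff ν V t.1 (hSV _ t.2) a).mpr ha⟩)
  refine ⟨key.1, fun h b hb => key.2 h b fun t => hb t.1 (hSV _ t.2) t.2⟩

end Count

end Groth.Agent.Models.H74.CohLin
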