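import Groth.Agent.CurvesB.NodeCriterion
import Mathlib.AlgebraicGeometry.ResidueField

/-!
# The ideal of the functions vanishing at a point
-/

set_option autoImplicit false
universe u
open CategoryTheory CategoryTheory.Limits AlgebraicGeometry Opposite TopologicalSpace

namespace Groth.Agent.Models.H74.EvIdeal

variable {X Y : Scheme.{u}}

/-- The functions over `V` vanishing at the point `x` of `V`. -/
noncomputable def evId (V : X.Opens) (x : X) (hx : x ∈ V) : Ideal Γ(X, V) :=
  RingHom.ker (X.evaluation V x hx).hom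

theorem mem_evId_iff (V : X.Opens) (x : X) (hx : x ∈ V) (f : Γ(X, V)) :
    f ∈ evId V x hx ↔ x ∉ X.basicOpen f := by
  rw [← X.evaluation_eq_zero_iff_notMem_basicOpen x hx f]
  exact Iff.rfl

/-- vanishing at a point can be checked on a smaller open -/
theorem mem_evId_res_iff {V W : X.Opens} (i : W ⟶ V) (x : X) (hx : x ∈ W) (f : Γ(X, V)) :
    X.presheaf.map i.op f ∈ evId W x hx ↔ f ∈ evId V x (i.le hx) := by
  rw [mem_evId_iff, mem_evId_iff, Scheme.basicOpen_res]
  constructor
  · intro h h'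
    exact h ⟨hx, h'⟩
  · intro h h'
    exact h h'.2

/-- pull back of functions and vanishing at points -/
theorem app_mem_evId_iff (g : Y ⟶ X) (V : X.Opens) (y : Y) (hy : g y ∈ V) (f : Γ(X, V)) :
    g.app V f ∈ evId (g ⁻¹ᵁ V) y hy ↔ f ∈ evId V (g y) hy := by
  rw [mem_evId_iff, mem_evId_iff, ← Scheme.preimage_basicOpen]
  exact Iff.rfl

theorem evId_injective {V : X.Opens} (hV : IsAffineOpen V) {x y : X} (hx : x ∈ V) (hy : y ∈ V)
    (h : evId V x hx = evId V y hy) : x = y := by
  have key : ∀ (z : X) (hz : z ∈ V), evId V z hz = (hV.primeIdealOf ⟨z, hz⟩).asIdeal := by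
    intro z hz
    ext f
    rw [mem_evId_iff]
    have h1 : hV.fromSpec ⁻¹ᵁ X.basicOpen f = PrimeSpectrum.basicOpen f :=
      hV.fromSpec_preimage_basicOpen f
    have h2 : hV.fromSpec (hV.primeIdealOf ⟨z, hz⟩) = z := hV.fromSpec_primeIdealOf ⟨z, hz⟩
    have h3 : (hV.primeIdealOf ⟨z, hz⟩ : Spec Γ(X, V)) ∈ hV.fromSpec ⁻¹ᵁ X.basicOpen f ↔
        z ∈ X.basicOpen f := by
      change hV.fromSpec (hV.primeIdealOf ⟨z, hz⟩) ∈ X.basicOpen f ↔ _
      rw [h2]
    rw [← h3, h1]
    exact not_not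
  have h1 : hV.primeIdealOf ⟨x, hx⟩ = hV.primeIdealOf ⟨y, hy⟩ := by
    apply PrimeSpectrum.ext
    rw [← key, ← key, h]
  have h2 : hV.fromSpec (hV.primeIdealOf ⟨x, hx⟩) = x := hV.fromSpec_primeIdealOf ⟨x, hx⟩
  have h3 : hV.fromSpec (hV.primeIdealOf ⟨y, hy⟩) = y := hV.fromSpec_primeIdealOf ⟨y, hy⟩
  rw [← h2, ← h3, h1]

section Field

variable {k : Type u} [Field k]

/-- The structure map of a `k`-scheme on sections over an open. -/
noncomputable def str (f : X ⟶ Spec (CommRingCat.of k)) (V : X.Opens) : k →+* Γ(X, V) :=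
  (X.presheaf.map (homOfLE (le_top (a := V))).op).hom.comp (Coh.toGlobal f)

theorem str_res (f : X ⟶ Spec (CommRingCat.of k)) {V W : X.Opens} (i : W ⟶ V) (c : k) :
    X.presheaf.map i.op (str f V c) = str f W c := by
  change X.presheaf.map i.op (X.presheaf.map (homOfLE (le_top (a := V))).op (Coh.toGlobal f c)) =
    X.presheaf.map (homOfLE (le_top (a := W))).op (Coh.toGlobal f c)
  rw [← ConcreteCategory.comp_apply, ← Functor.map_comp]
  rfl

theorem app_str (g : Y ⟶ X) (f : X ⟶ Spec (CommRingCat.of k)) (V : X.Opens) (c : k) :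
    g.app V (str f V c) = str (g ≫ f) (g ⁻¹ᵁ V) c := by
  have h1 : g.app V (X.presheaf.map (homOfLE (le_top (a := V))).op (Coh.toGlobal f c)) =
      Y.presheaf.map ((Opens.map g.base).map (homOfLE (le_top (a := V)))).op
        (g.app ⊤ (Coh.toGlobal f c)) :=
    congr($(g.naturality (homOfLE (le_top (a := V))).op) (Coh.toGlobal f c))
  refine h1.trans ?_
  have h2 : g.app ⊤ (Coh.toGlobal f c) = Coh.toGlobal (g ≫ f) c := by
    change g.appTop (f.appTop ((Scheme.ΓSpecIso (CommRingCat.of k)).inv c)) =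
      (g ≫ f).appTop ((Scheme.ΓSpecIso (CommRingCat.of k)).inv c)
    rw [Scheme.Hom.comp_appTop]
    rfl
  rw [h2]
  rfl

theorem evaluation_str (f : X ⟶ Spec (CommRingCat.of k)) (V : X.Opens) (x : X) (hx : x ∈ V) (c : k) :
    X.evaluation V x hx (str f V c) = @Curv2.resMap k _ X ⟨f⟩ x c := by
  change X.residue x (X.presheaf.germ V x hx (X.presheaf.map (homOfLE (le_top (a := V))).op (Coh.toGlobal f c))) = _
  rw [← ConcreteCategory.comp_apply (X.presheaf.map _), X.presheaf.germ_res]
  rfl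

/-- At a closed point of a scheme locally of finite type over an algebraically closed field every function
is congruent to a constant. -/
theorem exists_sub_str_mem [IsAlgClosed k] (f : X ⟶ Spec (CommRingCat.of k)) [LocallyOfFiniteType f]
    (V : X.Opens) (x : X) (hx : x ∈ V) (hxc : IsClosed ({x} : Set X)) (a : Γ(X, V)) :
    ∃ c : k, a - str f V c ∈ evId V x hx := by
  have h1 := (Groth.Agent.CurvesB.Node.isClosed_iff_finite f x).mp hxc
  let _ := @Curv2.resAlgebra k _ X ⟨f⟩ x
  have _ : Module.Finite k (X.residueField x) := h1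
  obtain ⟨c, hc⟩ := (IsAlgClosed.algebraMap_bijective_of_isIntegral (k := k) (K := X.residueField x)).2
    (X.evaluation V x hx a)
  refine ⟨c, ?_⟩
  change X.evaluation V x hx (a - str f V c) = 0
  rw [map_sub, sub_eq_zero, evaluation_str]
  exact hc.symm

theorem evId_ne_top (V : X.Opens) (x : X) (hx : x ∈ V) : evId V x hx ≠ ⊤ := by
  rw [Ideal.ne_top_iff_one, mem_evId_iff, not_not, Scheme.basicOpen_one]
  exact hx

theorem isMaximal_evId [IsAlgClosed k] (f : X ⟶ Spec (CommRingCat.of k)) [LocallyOfFiniteType f]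
    (V : X.Opens) (x : X) (hx : x ∈ V) (hxc : IsClosed ({x} : Set X)) : (evId V x hx).IsMaximal := by
  refine ⟨⟨evId_ne_top V x hx, fun J hJ => ?_⟩⟩
  obtain ⟨a, haJ, ha⟩ := Set.exists_of_ssubset hJ
  obtain ⟨c, hc⟩ := exists_sub_str_mem f V x hx hxc a
  have hc0 : c ≠ 0 := by
    rintro rfl
    rw [map_zero, sub_zero] at hc
    exact ha hc
  have h1 : str f V c ∈ J := by
    have := J.sub_mem haJ (hJ.1 hc)
    rwa [sub_sub_cancel] at this
  exact J.eq_top_of_isUnit_mem h1 ((isUnit_iff_ne_zero.mpr hc0).map (str f V))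

end Field

end Groth.Agent.Models.H74.EvIdeal
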