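import Groth.Agent.Models.H74.CountAlg
import Groth.Agent.Models.H74.EvIdeal
import Groth.Agent.CurvesB.PushH1
import Groth.Agent.CurvesB.GenusLib
import Groth.Agent.CurvesB.UnitCoh
import Groth.Agent.CohqB.FiniteType2
import Groth.Agent.VarietyA.Flasque1
import Groth.Agent.VarietyA.Dim1Top
import Groth.Agent.S0453

/-!
# The exact sequence `0 → O_Z → ν_* O_{Z'} → F → 0` of a finite birational map of reduced curves
-/

set_option autoImplicit false
universe u
open CategoryTheory CategoryTheory.Limits AlgebraicGeometry Opposite TopologicalSpace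

namespace Groth.Agent.Models.H74.CohSeq

open Groth.Agent.CohqB.FiniteType2 Groth.Agent.CohqB.ToSheafExact Groth.Agent.CurvesB EvIdeal

variable {Z Z' : Scheme.{u}} (ν : Z' ⟶ Z)

theorem mono_of_app_injective {M N : Z.Modules} (g : M ⟶ N)
    (h : ∀ U : Z.Opens, Function.Injective (g.app U)) : Mono g := by
  have h1 : Mono ((Scheme.Modules.toPresheaf Z).map g) := by
    rw [NatTrans.mono_iff_mono_app]
    intro U
    rw [AddCommGrpCat.mono_iff_injective]
    exact h U.unop
  exact (Scheme.Modules.toPresheaf Z).mono_of_mono_map h1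

section

variable [IsReduced Z] (U : Z.Opens) (hU : Dense (U : Set Z)) [IsIso (ν ∣_ U)]

include hU in
theorem mono_unitToPush : Mono (ClSub.unitToPush ν) :=
  mono_of_app_injective _ fun V => GenusLib.app_injective ν U hU V

include hU in
/-- `0 → O_Z → ν_* O_{Z'} → F → 0` -/
theorem shortExact : (ShortComplex.mk (ClSub.unitToPush ν) (cokernel.π (ClSub.unitToPush ν))
    (cokernel.condition _)).ShortExact := by
  have := mono_unitToPush ν U hU
  exact { exact := ShortComplex.exact_cokernel _, mono_f := this, epi_g := inferInstance }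

include hU in
theorem exists_seq : ∃ (F : Z.Modules) (π : (Coh.push ν).obj (Coh.structureModule Z') ⟶ F)
    (w : ClSub.unitToPush ν ≫ π = 0), (ShortComplex.mk (ClSub.unitToPush ν) π w).ShortExact :=
  ⟨_, _, _, shortExact ν U hU⟩

end

section

variable {ν} {F : Z.Modules} (π : (Coh.push ν).obj (Coh.structureModule Z') ⟶ F)

/-- the map on sections -/
noncomputable def q (V : Z.Opens) : Γ(Z', ν ⁻¹ᵁ V) →+ Γ(F, V) :=
  (π.app V).hom

variable {π} {w : ClSub.unitToPush ν ≫ π = 0} (hs : (ShortComplex.mk (ClSub.unitToPush ν) π w).ShortExact)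

include hs in
theorem q_eq_zero_iff (V : Z.Opens) (b : Γ(Z', ν ⁻¹ᵁ V)) :
    q π V b = 0 ↔ ∃ a : Γ(Z, V), ν.app V a = b := by
  have := hs.mono_f
  have h := sections_exact (ShortComplex.mk (ClSub.unitToPush ν) π w) hs.exact V b
  exact h

include hs in
theorem q_surjective {V : Z.Opens} (hV : IsAffineOpen V) : Function.Surjective (q π V) := by
  intro s
  have hs := shortExact_toAb hs
  have h1 : Subsingleton (CohqA.SheafH.HU
      ((ShortComplex.mk (ClSub.unitToPush ν) π w).map (toAbF Z)).X₁ 1 V) := by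
    have : (Coh.structureModule Z).IsQuasicoherent := (UnitCoh.isCoh_structureModule Z).1
    exact CohqA.AffineVanish.HU_subsingleton (Coh.structureModule Z) 1 one_pos V hV
  exact CohqA.SheafH.exists_lift_of_H1_eq_zero hs V s

variable (π) in
theorem q_res {V W : Z.Opens} (i : W ⟶ V) (b : Γ(Z', ν ⁻¹ᵁ V)) :
    F.presheaf.map i.op (q π V b) =
      q π W (Z'.presheaf.map ((Opens.map ν.base).map i).op b) :=
  (ConcreteCategory.congr_hom (((Scheme.Modules.toPresheaf Z).map π).naturality i.op) b).symm

/-- a section which vanishes locally is zero -/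
theorem eq_zero_of_cover (M : Z.Modules) {V : Z.Opens} (ι : Type u) (W : ι → Z.Opens) (hW : ∀ i, W i ≤ V)
    (hcov : V ≤ iSup W) (s : Γ(M, V)) (h : ∀ i, M.presheaf.map (homOfLE (hW i)).op s = 0) : s = 0 := by
  refine TopCat.Sheaf.eq_of_locally_eq' (Coh.toAb M : TopCat.Sheaf AddCommGrpCat.{u} Z.toTopCat) W V
    (fun i => homOfLE (hW i)) hcov s 0 ?_
  intro i
  rw [map_zero]
  exact h i

variable (U : Z.Opens) (hU : Dense (U : Set Z)) [IsIso (ν ∣_ U)]

include hs in
/-- the cokernel vanishes over `U`. -/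
theorem section_eq_zero (V : Z.Opens) (hV : V ≤ U) (s : Γ(F, V)) : s = 0 := by
  have hA : ∀ x : V, ∃ A : Z.Opens, IsAffineOpen A ∧ x.1 ∈ A ∧ A ≤ V := fun x => by
    obtain ⟨A, h1, h2, h3⟩ := exists_isAffineOpen_mem_and_subset (X := Z) x.2
    exact ⟨A, h1, h2, h3⟩
  choose A hA1 hA2 hA3 using hA
  refine eq_zero_of_cover _ V A hA3 (fun x hx => Opens.mem_iSup.mpr ⟨⟨x, hx⟩, hA2 ⟨x, hx⟩⟩) s ?_
  intro x
  obtain ⟨b, hb⟩ := q_surjective hs (hA1 x) (F.presheaf.map (homOfLE (hA3 x)).op s)
  rw [← hb, q_eq_zero_iff hs]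
  exact (GenusLib.app_bijective ν U (A x) ((hA3 x).trans hV)).2 b

include hs hU in
/-- the cokernel is flasque if `Z` is Noetherian of dimension at most one -/
theorem isFlasque [IsNoetherian Z] (hdim : topologicalKrullDim Z ≤ 1) :
    TopCat.Sheaf.IsFlasque (X := Z.toTopCat) (Coh.toAb F) := by
  refine VarietyA.Flasque1.isFlasque_of_support_subset (X := Z.toTopCat) (Coh.toAb F)
    ((U : Set Z)ᶜ) (fun T hT => ?_) ?_
  · have hf : T.Finite := (VarietyA.Dim1Top.finite_compl hdim U hU).subset hT
    rw [← Set.biUnion_of_singleton T]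
    exact hf.isClosed_biUnion fun x hx => (VarietyA.Dim1Top.point_of_compl hdim U hU x (hT hx)).1
  intro V hV s
  refine section_eq_zero hs U V ?_ s
  intro x hx
  by_contra hxU
  exact Set.disjoint_left.mp hV hx hxU

include hs hU in
theorem subsingleton_HH_one [IsNoetherian Z] (hdim : topologicalKrullDim Z ≤ 1) :
    Subsingleton (Coh.HH Z F 1) := by
  have := isFlasque hs U hU hdim
  exact Groth.Agent.S0453.result (X := Z.toTopCat) (Coh.toAb F) 0

include hs in
/-- restriction to an open containing the singular locus is bijective on the cokernel -/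
theorem res_bijective (V : Z.Opens) (hV : V ⊔ U = ⊤) :
    Function.Bijective (F.presheaf.map (homOfLE (le_top (a := V))).op) := by
  constructor
  · rw [injective_iff_map_eq_zero]
    intro s hs0
    refine eq_zero_of_cover _ (ULift.{u} Bool) (fun b => if b.down then V else U) (fun _ => le_top) ?_ s ?_
    · rw [← hV]
      exact sup_le (le_iSup_of_le ⟨true⟩ le_rfl) (le_iSup_of_le ⟨false⟩ le_rfl)
    · rintro ⟨b⟩
      cases b
      · exact section_eq_zero hs U _ le_rfl _
      · exact hs0
  · intro t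
    exact VarietyA.Flasque1.exists_extend (X := Z.toTopCat) (Coh.toAb F) V U hV t
      (section_eq_zero hs U (V ⊓ U) inf_le_right _)

end

end Groth.Agent.Models.H74.CohSeq
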