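import Groth.Agent.Models.H74.CohLin
import Groth.Agent.CohqA.AffPush
import Groth.Agent.CurvesC.EulerHV
import Groth.Agent.PerfA.H0AlgClosed
import Groth.Agent.Sga67.CohBasic
import Groth.Agent.CurvesA.DimOne
import Groth.Agent.S0002
import Groth.Agent.S0217
import Groth.Agent.S1524

/-!
# The coherent side of the Artin–Winters count of a reduced curve

`Z` reduced connected proper over an algebraically closed field, `ν : Z' → Z` finite, an isomorphism over the
dense open `U`. With `s = #(Z ∖ U)`, `b = #ν⁻¹(Z ∖ U)`: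
`1 + h¹(Z') + b ≤ h¹(Z) + h⁰(Z') + s`, and in the case of equality every function on `Z'` over an open `V` of `Z`
which vanishes at all points over `V ∖ U` comes from `Z`.
-/

set_option autoImplicit false
universe u
open CategoryTheory CategoryTheory.Limits AlgebraicGeometry Opposite TopologicalSpace Module

namespace Groth.Agent.Models.H74.CohSide

open Groth.Agent.CurvesB EvIdeal CohSeq CohLin

theorem res_res {X : Scheme.{u}} {U V W : X.Opens} (i : V ⟶ U) (j : W ⟶ V) (l : W ⟶ U) (s : Γ(X, U)) :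
    X.presheaf.map j.op (X.presheaf.map i.op s) = X.presheaf.map l.op s := by
  rw [← ConcreteCategory.comp_apply, ← Functor.map_comp]
  rfl

/-- An affine open containing the complement of a dense open of a proper curve. -/
theorem exists_affine {k : Type u} [Field k] {Z : Scheme.{u}} (f : Z ⟶ Spec (CommRingCat.of k)) [IsProper f]
    (hdim : topologicalKrullDim Z ≤ 1) (U : Z.Opens) (hU : Dense (U : Set Z)) :
    ∃ V : Z.Opens, IsAffineOpen V ∧ V ⊔ U = ⊤ := by
  have hN : IsNoetherian Z := GenusLib.isNoetherian_of_proper f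
  have hsep : Z.IsSeparated := ⟨by
    have : Limits.terminal.from Z = f ≫ Limits.terminal.from _ := Limits.terminal.hom_ext _ _
    rw [this]
    infer_instance⟩
  have hfin := VarietyA.Dim1Top.finite_compl hdim U hU
  obtain ⟨V, hV, hVs⟩ := Groth.Agent.S0217.result Z (fun U _ => by
      have : NoetherianSpace (U : Set Z) := NoetherianSpace.set _
      exact NoetherianSpace.finite_irreducibleComponents) hfin.toFinset
      (fun y _ => ⟨inferInstance, (CurvesA.DimOne.ringKrullDim_stalk_le Z y).trans hdim⟩)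
  refine ⟨V, hV, ?_⟩
  rw [eq_top_iff]
  intro x _
  by_cases hx : x ∈ U
  · exact Or.inr hx
  · exact Or.inl (hVs x (hfin.mem_toFinset.2 hx))

section Euler

variable (k : Type u) [Field k] {Z Z' : Scheme.{u}} [Z.Over (Spec (CommRingCat.of k))]
  [Z'.Over (Spec (CommRingCat.of k))] (ν : Z' ⟶ Z)
  (hν : ν ≫ (Z ↘ Spec (CommRingCat.of k)) = Z' ↘ Spec (CommRingCat.of k))

include hν in
theorem appTop_gl (t : k) : ν.appTop.hom (HZero.gl k Z t) = HZero.gl k Z' t := by
  have h1 : (Z' ↘ (Spec (CommRingCat.of k))).appTop =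
      (Z ↘ (Spec (CommRingCat.of k))).appTop ≫ ν.appTop := by
    rw [← Scheme.Hom.comp_appTop, hν]
  change ν.appTop.hom ((Z ↘ (Spec (CommRingCat.of k))).appTop.hom
    ((Scheme.ΓSpecIso (CommRingCat.of k)).inv.hom t)) =
    (Z' ↘ (Spec (CommRingCat.of k))).appTop.hom ((Scheme.ΓSpecIso (CommRingCat.of k)).inv.hom t)
  rw [h1]
  rfl

include hν in
/-- `H⁰(Z', O) = H⁰(Z, ν_* O)`. -/
theorem nonempty_equiv_zero :
    Nonempty (Coh.HH Z' (Coh.structureModule Z') 0 ≃ₗ[k]
      Coh.HH Z ((Coh.push ν).obj (Coh.structureModule Z')) 0) := by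
  let _ := HZero.moduleΓ k (Coh.structureModule Z')
  let _ := HZero.moduleΓ k ((Coh.push ν).obj (Coh.structureModule Z'))
  let e : Γ(Coh.structureModule Z', ⊤) ≃ₗ[k] Γ((Coh.push ν).obj (Coh.structureModule Z'), ⊤) :=
    { AddEquiv.refl Γ(Coh.structureModule Z', ⊤) with
      map_smul' := fun t x => by
        change (HZero.gl k Z' t) • (show Γ(Z', ⊤) from x) =
          (show Γ(Z', ⊤) from ν.appTop.hom (HZero.gl k Z t)) • (show Γ(Z', ⊤) from x)
        rw [appTop_gl k ν hν t] }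
  exact ⟨(HZero.equivLin k (Coh.structureModule Z')).trans
    (e.trans (HZero.equivLin k ((Coh.push ν).obj (Coh.structureModule Z'))).symm)⟩

variable {F : Z.Modules} {π : (Coh.push ν).obj (Coh.structureModule Z') ⟶ F}
    {w : ClSub.unitToPush ν ≫ π = 0} (hs : (ShortComplex.mk (ClSub.unitToPush ν) π w).ShortExact)

include hν hs in
/-- Euler characteristics in `0 → O_Z → ν_* O_{Z'} → F → 0`. -/
theorem euler_relation [IsProper (Z ↘ Spec (CommRingCat.of k))] [IsFinite ν]
    (hdim : topologicalKrullDim Z ≤ 1) (U : Z.Opens) (hU : Dense (U : Set Z)) [IsIso (ν ∣_ U)] :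
    Module.Finite k (Coh.HH Z F 0) ∧
    finrank k (Coh.HH Z' (Coh.structureModule Z') 0) + Curv2.genus k Z =
      finrank k (Coh.HH Z (Coh.structureModule Z) 0) + Curv2.genus k Z' +
        finrank k (Coh.HH Z F 0) := by
  have hN : IsNoetherian Z := GenusLib.isNoetherian_of_proper (Z ↘ Spec (CommRingCat.of k))
  have hO : Coh.IsCoh (Coh.structureModule Z) := UnitCoh.isCoh_structureModule Z
  have hO' : Coh.IsCoh (Coh.structureModule Z') := UnitCoh.isCoh_structureModule Z'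
  have hP : Coh.IsCoh ((Coh.push ν).obj (Coh.structureModule Z')) :=
    ⟨CohqA.AffPush.isQCoh_push ν _ hO'.1, CohqA.AffPush.isFT_push ν _ hO'.1 hO'.2⟩
  have hC : Coh.IsCoh F := Sga67.CohBasic.isCoh_X₃ hs hO.1 hP
  have hadd := Groth.Agent.S1524.result k Z (ShortComplex.mk (ClSub.unitToPush ν) π w) hs hO hP hC
  have e1 := CurvesC.EulerHV.euler_eq k Z hdim (ShortComplex.mk (ClSub.unitToPush ν) π w).X₁
  have e2 := CurvesC.EulerHV.euler_eq k Z hdim (ShortComplex.mk (ClSub.unitToPush ν) π w).X₂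
  have e3 := CurvesC.EulerHV.euler_eq k Z hdim (ShortComplex.mk (ClSub.unitToPush ν) π w).X₃
  have hO1 : Coh.IsQCoh (Coh.structureModule Z') := hO'.1
  obtain ⟨f1⟩ := PushH1.exists_linearEquiv ν k hν (Coh.structureModule Z')
  obtain ⟨f0⟩ := nonempty_equiv_zero k ν hν
  have h3 : finrank k (Coh.HH Z (ShortComplex.mk (ClSub.unitToPush ν) π w).X₃ 1) = 0 := by
    have := subsingleton_HH_one hs U hU hdim
    exact finrank_zero_of_subsingleton
  have g0 : finrank k (Coh.HH Z (ShortComplex.mk (ClSub.unitToPush ν) π w).X₂ 0) = finrank k (Coh.HH Z' (Coh.structureModule Z') 0) :=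
    f0.finrank_eq.symm
  have g1 : finrank k (Coh.HH Z (ShortComplex.mk (ClSub.unitToPush ν) π w).X₂ 1) = Curv2.genus k Z' := f1.finrank_eq.symm
  have g2 : finrank k (Coh.HH Z (ShortComplex.mk (ClSub.unitToPush ν) π w).X₁ 1) = Curv2.genus k Z := rfl
  have g3 : finrank k (Coh.HH Z (ShortComplex.mk (ClSub.unitToPush ν) π w).X₁ 0) = finrank k (Coh.HH Z (Coh.structureModule Z) 0) := rfl
  have g4 : finrank k (Coh.HH Z (ShortComplex.mk (ClSub.unitToPush ν) π w).X₃ 0) = finrank k (Coh.HH Z F 0) := rfl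
  refine ⟨Groth.Agent.S0002.result k Z _ hC 0, ?_⟩
  change Curv2.euler k Z (ShortComplex.mk (ClSub.unitToPush ν) π w).X₂ = (finrank k (Coh.HH Z (ShortComplex.mk (ClSub.unitToPush ν) π w).X₂ 0) : ℤ) - finrank k (Coh.HH Z (ShortComplex.mk (ClSub.unitToPush ν) π w).X₂ 1) at e2
  change Curv2.euler k Z (ShortComplex.mk (ClSub.unitToPush ν) π w).X₁ = (finrank k (Coh.HH Z (ShortComplex.mk (ClSub.unitToPush ν) π w).X₁ 0) : ℤ) - finrank k (Coh.HH Z (ShortComplex.mk (ClSub.unitToPush ν) π w).X₁ 1) at e1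
  change Curv2.euler k Z (ShortComplex.mk (ClSub.unitToPush ν) π w).X₃ = (finrank k (Coh.HH Z (ShortComplex.mk (ClSub.unitToPush ν) π w).X₃ 0) : ℤ) - finrank k (Coh.HH Z (ShortComplex.mk (ClSub.unitToPush ν) π w).X₃ 1) at e3
  rw [e1, e2, e3, g0, g1, g2, g3, g4, h3] at hadd
  omega

end Euler

/-- `h⁰(O) = 1` for `Z` reduced, connected and proper over an algebraically closed field. -/
theorem finrank_HH_zero_eq_one (k : Type u) [Field k] [IsAlgClosed k] {Z : Scheme.{u}}
    [Z.Over (Spec (CommRingCat.of k))] [IsProper (Z ↘ Spec (CommRingCat.of k))] [IsReduced Z] [ConnectedSpace Z] :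
    finrank k (Coh.HH Z (Coh.structureModule Z) 0) = 1 := by
  have hb := PerfA.H0AlgClosed.bijective_str_of_isAlgClosed (Z ↘ Spec (CommRingCat.of k))
  have h2 : PerfA.CechH0.str (Z ↘ Spec (CommRingCat.of k)) ⊤ = HZero.gl k Z := by
    have h3 : (Z ↘ Spec (CommRingCat.of k)).appLE ⊤ ⊤ (PerfA.CechH0.le_preimage_top (Z ↘ Spec (CommRingCat.of k)) ⊤) =
        (Z ↘ Spec (CommRingCat.of k)).appTop := by
      rw [Scheme.Hom.appTop, Scheme.Hom.app_eq_appLE]; rfl
    rw [PerfA.CechH0.str, h3]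
    rfl
  rw [h2] at hb
  rw [finrank_eq_one_iff']
  refine ⟨(HZero.equivO Z).symm 1, ?_, fun w => ?_⟩
  · intro h
    have h1 : (1 : Γ(Z, ⊤)) = 0 := by
      have := congrArg (HZero.equivO Z) h
      rwa [AddEquiv.apply_symm_apply, map_zero] at this
    have : Nonempty (⊤ : Z.Opens) := ⟨⟨Classical.arbitrary Z, trivial⟩⟩
    exact one_ne_zero h1
  · obtain ⟨c, hc⟩ := hb.2 (HZero.equivO Z w)
    refine ⟨c, (HZero.equivO Z).injective ?_⟩
    rw [HZero.equivO_smul, AddEquiv.apply_symm_apply, mul_one, hc]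

section Main

variable (k : Type u) [Field k] [IsAlgClosed k] {Z Z' : Scheme.{u}} [Z.Over (Spec (CommRingCat.of k))]
  [Z'.Over (Spec (CommRingCat.of k))] [IsProper (Z ↘ Spec (CommRingCat.of k))] [IsReduced Z] [ConnectedSpace Z]
  (hdim : topologicalKrullDim Z ≤ 1) (ν : Z' ⟶ Z) [IsFinite ν]
  (hν : ν ≫ (Z ↘ Spec (CommRingCat.of k)) = Z' ↘ Spec (CommRingCat.of k))
  (U : Z.Opens) (hU : Dense (U : Set Z)) [IsIso (ν ∣_ U)]

include hdim hν hU in
/-- The inequality `1 + h¹(Z') + b ≤ h¹(Z) + h⁰(Z') + s`. -/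
theorem ineq : 1 + Curv2.genus k Z' + Nat.card (ν ⁻¹' (U : Set Z)ᶜ : Set Z') ≤
    Curv2.genus k Z + finrank k (Coh.HH Z' (Coh.structureModule Z') 0) + Nat.card ((U : Set Z)ᶜ : Set Z) := by
  have hN : IsNoetherian Z := GenusLib.isNoetherian_of_proper (Z ↘ Spec (CommRingCat.of k))
  obtain ⟨V, hV, hVU⟩ := exists_affine (Z ↘ Spec (CommRingCat.of k)) hdim U hU
  obtain ⟨F, π, w, hs⟩ := exists_seq ν U hU
  obtain ⟨hfin, heu⟩ := euler_relation k ν hν hs hdim U hU
  rw [finrank_HH_zero_eq_one k (Z := Z)] at heu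
  obtain ⟨hf2, hrk⟩ := finrank_HH_zero k hs U V hV hVU
  have hc := (count ν (Z ↘ Spec (CommRingCat.of k)) hdim U hU V hV hVU hf2).1
  rw [← hrk] at hc
  omega

include hdim hν hU in
theorem exists_app_eq_aux (h : Curv2.genus k Z + finrank k (Coh.HH Z' (Coh.structureModule Z') 0) +
      Nat.card ((U : Set Z)ᶜ : Set Z) ≤ 1 + Curv2.genus k Z' + Nat.card (ν ⁻¹' (U : Set Z)ᶜ : Set Z'))
    (V : Z.Opens) (hV : IsAffineOpen V) (hVU : V ⊔ U = ⊤)
    (b : Γ(Z', ν ⁻¹ᵁ V)) (hb : ∀ (y : Z') (hy : ν y ∈ V), ν y ∉ U → b ∈ evId (ν ⁻¹ᵁ V) y hy) :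
    ∃ a : Γ(Z, V), ν.app V a = b := by
  have hN : IsNoetherian Z := GenusLib.isNoetherian_of_proper (Z ↘ Spec (CommRingCat.of k))
  obtain ⟨F, π, w, hs⟩ := exists_seq ν U hU
  obtain ⟨hfin, heu⟩ := euler_relation k ν hν hs hdim U hU
  rw [finrank_HH_zero_eq_one k (Z := Z)] at heu
  obtain ⟨hf2, hrk⟩ := finrank_HH_zero k hs U V hV hVU
  have hc := (count ν (Z ↘ Spec (CommRingCat.of k)) hdim U hU V hV hVU hf2).2
  rw [← hrk] at hc
  exact hc (by omega) b hb

include hdim hν hU in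
/-- In the case of equality the functions on `Z'` vanishing at all points over the complement of `U` come
from `Z`. -/
theorem exists_app_eq (h : Curv2.genus k Z + finrank k (Coh.HH Z' (Coh.structureModule Z') 0) +
      Nat.card ((U : Set Z)ᶜ : Set Z) ≤ 1 + Curv2.genus k Z' + Nat.card (ν ⁻¹' (U : Set Z)ᶜ : Set Z'))
    (V : Z.Opens) (b : Γ(Z', ν ⁻¹ᵁ V))
    (hb : ∀ (y : Z') (hy : ν y ∈ V), ν y ∉ U → b ∈ evId (ν ⁻¹ᵁ V) y hy) :
    ∃ a : Γ(Z, V), ν.app V a = b := by
  obtain ⟨V₀, hV₀, hVU⟩ := exists_affine (Z ↘ Spec (CommRingCat.of k)) hdim U hU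
  obtain ⟨F, π, w, hs⟩ := exists_seq ν U hU
  rw [← q_eq_zero_iff hs]
  have hloc : ∀ x : V, ∃ W : Z.Opens, ∃ hW : W ≤ V, x.1 ∈ W ∧
      F.presheaf.map (homOfLE hW).op (q π V b) = 0 := by
    rintro ⟨x, hx⟩
    by_cases hxU : x ∈ U
    · exact ⟨V ⊓ U, inf_le_left, ⟨hx, hxU⟩, section_eq_zero hs U _ inf_le_right _⟩
    · have hxV₀ : x ∈ V₀ := by
        have : x ∈ V₀ ⊔ U := by rw [hVU]; trivial
        exact this.resolve_right hxU
      obtain ⟨g, hgle, hxg⟩ := hV₀.exists_basicOpen_le (V := V ⊓ V₀) ⟨x, hx, hxV₀⟩ hxV₀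
      have hgV : Z.basicOpen g ≤ V := hgle.trans inf_le_left
      refine ⟨Z.basicOpen g, hgV, hxg, ?_⟩
      rw [q_res]
      let W' : Z'.Opens := ν ⁻¹ᵁ V₀
      have hW' : IsAffineOpen W' := hV₀.preimage ν
      let g' : Γ(Z', W') := ν.app V₀ g
      have hpre : ν ⁻¹ᵁ Z.basicOpen g = Z'.basicOpen g' := Scheme.preimage_basicOpen ν g
      have hD : Z'.basicOpen g' ≤ ν ⁻¹ᵁ V := hpre.symm.le.trans (ν.preimage_mono hgV)
      obtain ⟨n, y, hy⟩ := exists_eq_pow_mul_of_isAffineOpen Z' W' hW' g'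
        (Z'.presheaf.map (homOfLE hD).op b)
      change Z'.presheaf.map (homOfLE (Z'.basicOpen_le g')).op y =
        Z'.presheaf.map (homOfLE (Z'.basicOpen_le g')).op g' ^ n * Z'.presheaf.map (homOfLE hD).op b at hy
      -- `g' * y` vanishes at all points over the complement of `U`
      have hvan : ∀ (t : Z') (ht : ν t ∈ V₀), ν t ∉ U → g' * y ∈ evId W' t ht := by
        intro t ht htU
        by_cases htg : t ∈ Z'.basicOpen g'
        · refine Ideal.mul_mem_left _ _ ?_
          rw [← mem_evId_res_iff (homOfLE (Z'.basicOpen_le g')) t htg y, hy]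
          refine Ideal.mul_mem_left _ _ ?_
          rw [mem_evId_res_iff (homOfLE hD) t htg b]
          exact hb t (hD htg) htU
        · exact Ideal.mul_mem_right _ _ ((mem_evId_iff W' t ht g').mpr htg)
      obtain ⟨a, ha⟩ := exists_app_eq_aux k hdim ν hν U hU h V₀ hV₀ hVU (g' * y) hvan
      have h1 : q π V₀ (g' * y) = 0 := (q_eq_zero_iff hs V₀ _).mpr ⟨a, ha⟩
      have h2 := congrArg (F.presheaf.map (homOfLE (Z.basicOpen_le g)).op) h1
      rw [q_res, map_zero] at h2
      have hle : ν ⁻¹ᵁ Z.basicOpen g ≤ Z'.basicOpen g' := hpre.le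
      have h3 : Z'.presheaf.map ((Opens.map ν.base).map (homOfLE (Z.basicOpen_le g))).op (g' * y) =
          ν.app (Z.basicOpen g) (Z.presheaf.map (homOfLE (Z.basicOpen_le g)).op g) ^ (n + 1) *
            Z'.presheaf.map ((Opens.map ν.base).map (homOfLE hgV)).op b := by
        have e1 : ν.app (Z.basicOpen g) (Z.presheaf.map (homOfLE (Z.basicOpen_le g)).op g) =
            Z'.presheaf.map ((Opens.map ν.base).map (homOfLE (Z.basicOpen_le g))).op g' :=
          congr($(ν.naturality (homOfLE (Z.basicOpen_le g)).op) g)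
        have e2 := congrArg (Z'.presheaf.map (homOfLE hle).op) hy
        rw [map_mul, map_pow,
          res_res (homOfLE (Z'.basicOpen_le g')) (homOfLE hle)
            ((Opens.map ν.base).map (homOfLE (Z.basicOpen_le g))) y,
          res_res (homOfLE (Z'.basicOpen_le g')) (homOfLE hle)
            ((Opens.map ν.base).map (homOfLE (Z.basicOpen_le g))) g',
          res_res (homOfLE hD) (homOfLE hle) ((Opens.map ν.base).map (homOfLE hgV)) b] at e2
        rw [map_mul, e2, e1, pow_succ]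
        ring
      have h4 : q π (Z.basicOpen g)
          (ν.app (Z.basicOpen g) (Z.presheaf.map (homOfLE (Z.basicOpen_le g)).op g) ^ (n + 1) *
            Z'.presheaf.map ((Opens.map ν.base).map (homOfLE hgV)).op b) =
          (Z.presheaf.map (homOfLE (Z.basicOpen_le g)).op g) ^ (n + 1) •
            q π (Z.basicOpen g) (Z'.presheaf.map ((Opens.map ν.base).map (homOfLE hgV)).op b) := by
        rw [← map_pow]
        exact (CohqB.FiniteType2.appLinear π (Z.basicOpen g)).map_smul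
          ((Z.presheaf.map (homOfLE (Z.basicOpen_le g)).op g) ^ (n + 1)) _
      have hu : IsUnit ((Z.presheaf.map (homOfLE (Z.basicOpen_le g)).op g) ^ (n + 1)) :=
        (RingedSpace.isUnit_res_basicOpen _ g).pow _
      rw [h3, h4] at h2
      exact (hu.smul_eq_zero).mp h2
  choose W hW hxW hW0 using hloc
  exact eq_zero_of_cover _ V W hW (fun x hx => Opens.mem_iSup.mpr ⟨⟨x, hx⟩, hxW ⟨x, hx⟩⟩) _ hW0

end Main

end Groth.Agent.Models.H74.CohSide
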