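import Mathlib.LinearAlgebra.Dimension.Constructions
import Mathlib.LinearAlgebra.Dimension.Finrank
import Mathlib.LinearAlgebra.FiniteDimensional.Basic
import Mathlib.LinearAlgebra.FiniteDimensional.Lemmas
import Mathlib.RingTheory.Ideal.Quotient.Operations

/-!
# Counting rational points over the singular points of a curve: pure algebra

`A → B` is a homomorphism of `k`-algebras, `m : S → Ideal A`, `n : T → Ideal B` finite families of `k`-rational
maximal ideals, those of the second family pairwise distinct, such that every element of `A` vanishing at all `m s`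
goes to an element vanishing at all `n t`. Then `#T ≤ #S + dim_k (B / A)`, and in the case of equality the ideal
`⋂ n t` is contained in the image of `A`.
-/

set_option autoImplicit false

open Module

namespace Groth.Agent.Models.H74.CountAlg

variable {k A B : Type*} [Field k] [CommRing A] [Algebra k A] [CommRing B] [Algebra k B]

/-- A family of pairwise distinct `k`-rational maximal ideals separates the algebra. -/
theorem finrank_quotient_iInf {T : Type*} [Finite T] (n : T → Ideal B)
    (hn : ∀ t, (n t).IsMaximal) (hk : ∀ t, Function.Surjective (algebraMap k (B ⧸ n t)))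
    (hinj : Function.Injective n) :
    finrank k (B ⧸ ⨅ t, n t) = Nat.card T := by
  classical
  have : Fintype T := Fintype.ofFinite T
  have hcop : Pairwise fun s t => IsCoprime (n s) (n t) := by
    intro s t hst
    exact Ideal.isCoprime_iff_sup_eq.mpr ((hn s).coprime_of_ne (hn t) (fun h => hst (hinj h)))
  let e : (B ⧸ ⨅ t, n t) ≃ₗ[k] (∀ t, B ⧸ n t) :=
    { Ideal.quotientInfRingEquivPiQuotient n hcop with
      map_smul' := fun c x => by
        obtain ⟨x, rfl⟩ := Ideal.Quotient.mk_surjective x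
        rfl }
  rw [e.finrank_eq]
  have h1 : ∀ t, finrank k (B ⧸ n t) = 1 := by
    intro t
    have := hn t
    have hb : Function.Bijective (algebraMap k (B ⧸ n t)) := ⟨(algebraMap k (B ⧸ n t)).injective, hk t⟩
    let e' : k ≃ₗ[k] (B ⧸ n t) := LinearEquiv.ofBijective (Algebra.linearMap k (B ⧸ n t)) hb
    rw [← e'.finrank_eq, finrank_self]
  have hfin : ∀ t, Module.Finite k (B ⧸ n t) := fun t => Module.finite_of_finrank_eq_succ (h1 t)
  rw [Module.finrank_pi_fintype]
  simp [h1]

theorem finite_quotient_iInf {T : Type*} [Finite T] (n : T → Ideal B)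
    (hk : ∀ t, Function.Surjective (algebraMap k (B ⧸ n t))) :
    Module.Finite k (B ⧸ ⨅ t, n t) ∧ finrank k (B ⧸ ⨅ t, n t) ≤ Nat.card T := by
  classical
  have : Fintype T := Fintype.ofFinite T
  have hle : ∀ t, ⨅ t, n t ≤ n t := fun t => iInf_le _ t
  let φ : (B ⧸ ⨅ t, n t) →ₗ[k] (∀ t, B ⧸ n t) :=
    LinearMap.pi fun t => (Ideal.Quotient.factorₐ k (hle t)).toLinearMap
  have hφ : Function.Injective φ := by
    rw [← LinearMap.ker_eq_bot, LinearMap.ker_eq_bot']
    intro x hx
    obtain ⟨x, rfl⟩ := Ideal.Quotient.mk_surjective x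
    rw [Ideal.Quotient.eq_zero_iff_mem, Ideal.mem_iInf]
    intro t
    rw [← Ideal.Quotient.eq_zero_iff_mem]
    exact congrFun hx t
  have hfin : ∀ t, Module.Finite k (B ⧸ n t) := fun t =>
    Module.Finite.of_surjective (Algebra.linearMap k (B ⧸ n t)) (hk t)
  have h1 : ∀ t, finrank k (B ⧸ n t) ≤ 1 := by
    intro t
    have := LinearMap.finrank_le_finrank_of_surjective (f := Algebra.linearMap k (B ⧸ n t)) (hk t)
    rwa [finrank_self] at this
  refine ⟨Module.Finite.of_injective φ hφ, ?_⟩
  refine (LinearMap.finrank_le_finrank_of_injective hφ).trans ?_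
  rw [Module.finrank_pi_fintype]
  refine (Finset.sum_le_sum fun t _ => h1 t).trans ?_
  simp

/-- The main counting lemma. -/
theorem card_le_and_mem_range (φ : A →ₐ[k] B) {S T : Type*} [Finite S] [Finite T]
    (m : S → Ideal A) (n : T → Ideal B) (hn : ∀ t, (n t).IsMaximal)
    (hkm : ∀ s, Function.Surjective (algebraMap k (A ⧸ m s)))
    (hkn : ∀ t, Function.Surjective (algebraMap k (B ⧸ n t)))
    (hinj : Function.Injective n)
    (hmn : ∀ t, ∃ s, m s ≤ (n t).comap φ)
    [Module.Finite k (B ⧸ LinearMap.range φ.toLinearMap)] :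
    Nat.card T ≤ Nat.card S + finrank k (B ⧸ LinearMap.range φ.toLinearMap) ∧
      (Nat.card S + finrank k (B ⧸ LinearMap.range φ.toLinearMap) ≤ Nat.card T →
        ∀ b : B, (∀ t, b ∈ n t) → ∃ a : A, φ a = b) := by
  classical
  let I : Ideal A := ⨅ s, m s
  let J : Ideal B := ⨅ t, n t
  have hIJ : I ≤ J.comap φ := by
    intro a ha
    rw [Ideal.mem_comap, Ideal.mem_iInf]
    intro t
    obtain ⟨s, hs⟩ := hmn t
    exact hs (Ideal.mem_iInf.mp ha s)
  obtain ⟨hfI, hcI⟩ := finite_quotient_iInf m hkm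
  obtain ⟨hfJ, -⟩ := finite_quotient_iInf n hkn
  have hcJ := finrank_quotient_iInf n hn hkn hinj
  -- the linear maps `A/I → B/J` and `B/A → (B/J)/(A/I)`
  let ψ : (A ⧸ I) →ₗ[k] (B ⧸ J) := (Ideal.quotientMapₐ J φ hIJ).toLinearMap
  have hψ : ∀ a : A, ψ (Ideal.Quotient.mk I a) = Ideal.Quotient.mk J (φ a) := fun a => rfl
  let Q := B ⧸ LinearMap.range φ.toLinearMap
  let R := (B ⧸ J) ⧸ LinearMap.range ψ
  let π₀ : B →ₗ[k] R := (LinearMap.range ψ).mkQ.comp (Ideal.Quotient.mkₐ k J).toLinearMap
  have hπ₀ : ∀ b, π₀ b = (LinearMap.range ψ).mkQ (Ideal.Quotient.mk J b) := fun b => rfl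
  have hker : LinearMap.range φ.toLinearMap ≤ LinearMap.ker π₀ := by
    rintro _ ⟨a, rfl⟩
    rw [LinearMap.mem_ker, hπ₀]
    rw [Submodule.mkQ_apply, Submodule.Quotient.mk_eq_zero]
    exact ⟨Ideal.Quotient.mk I a, hψ a⟩
  let π : Q →ₗ[k] R := (LinearMap.range φ.toLinearMap).liftQ π₀ hker
  have hπ : Function.Surjective π := by
    intro r
    obtain ⟨r, rfl⟩ := Submodule.mkQ_surjective _ r
    obtain ⟨b, rfl⟩ := Ideal.Quotient.mk_surjective r
    exact ⟨Submodule.Quotient.mk b, rfl⟩
  have h1 : finrank k R + finrank k (LinearMap.range ψ) = finrank k (B ⧸ J) :=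
    Submodule.finrank_quotient_add_finrank _
  have h2 : finrank k (LinearMap.range ψ) ≤ finrank k (A ⧸ I) := LinearMap.finrank_range_le ψ
  have h3 : finrank k R ≤ finrank k Q := LinearMap.finrank_le_finrank_of_surjective hπ
  have hcI' : finrank k (A ⧸ I) ≤ Nat.card S := hcI
  have hcJ' : finrank k (B ⧸ J) = Nat.card T := hcJ
  have hQ : finrank k (B ⧸ LinearMap.range φ.toLinearMap) = finrank k Q := rfl
  refine ⟨by omega, fun heq b hb => ?_⟩
  have h4 : finrank k Q = finrank k R := by omega
  have hπinj : Function.Injective π :=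
    (LinearMap.injective_iff_surjective_of_finrank_eq_finrank h4).mpr hπ
  have h5 : (Submodule.Quotient.mk b : Q) = 0 := by
    apply hπinj
    rw [map_zero]
    change π₀ b = 0
    rw [hπ₀]
    have h6 : Ideal.Quotient.mk J b = 0 := by
      rw [Ideal.Quotient.eq_zero_iff_mem, Ideal.mem_iInf]
      exact hb
    rw [h6, map_zero]
  rw [Submodule.Quotient.mk_eq_zero] at h5
  obtain ⟨a, ha⟩ := h5
  exact ⟨a, ha⟩

end Groth.Agent.Models.H74.CountAlg
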