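import Groth.Agent.Models.H74.CurveBC
import Groth.Agent.VarietyA.PicLimitAlg
import Groth.Agent.S1154
import Groth.Agent.S0232
import Groth.Agent.Grpsch.PicGrp
import Mathlib.FieldTheory.Galois.GaloisClosure
import Mathlib.FieldTheory.IsSepClosed
import Mathlib.SetTheory.Cardinal.Finite

/-!
# Torsion in the Picard group and field extensions

`f : C ⟶ Spec K` quasi-compact quasi-separated with `H⁰(C, O) = K`.
* `pull_injective`: `Pic C → Pic C_L` is injective for every field extension `L/K`;
* `exists_pull_of_purelyInseparable`: an `n`-torsion class on `C_L`, `L/K` purely inseparable and `n` invertible in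
  `K`, comes from `C`;
* `exists_pull_of_finset`: finitely many classes on `C_L` come from `C_{K[F]}`, `F` a finite subset of `L`.
-/

set_option autoImplicit false
universe u
open CategoryTheory CategoryTheory.Limits AlgebraicGeometry

namespace Groth.Agent.Models.H74.PicInj

open Grpsch.PicGrp

/-- `H⁰(C, O_C)` is finite over `K` when `K → Γ(C, ⊤)` is bijective. -/
theorem finite_HH_zero {K : Type u} [Field K] {C : Scheme.{u}} [C.Over (Spec (CommRingCat.of K))]
    [IsIso (C ↘ Spec (CommRingCat.of K)).appTop] :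
    Module.Finite K (Coh.HH C (Coh.structureModule C) 0) := by
  refine ⟨⟨{(CurvesB.HZero.equivO C).symm 1}, ?_⟩⟩
  rw [eq_top_iff]
  rintro x -
  obtain ⟨t, ht⟩ := (CurveBC.bijective_toGlobal (C ↘ Spec (CommRingCat.of K))).2
    (CurvesB.HZero.equivO C x)
  have h1 : x = t • (CurvesB.HZero.equivO C).symm 1 := by
    apply (CurvesB.HZero.equivO C).injective
    rw [CurvesB.HZero.equivO_smul, AddEquiv.apply_symm_apply, mul_one]
    exact ht.symm
  rw [h1]
  exact Submodule.smul_mem _ _ (Submodule.subset_span (by simp))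

variable {K : Type u} [Field K] {C : Scheme.{u}} (f : C ⟶ Spec (CommRingCat.of K))

section Inj

variable {L : Type u} [Field L] [Algebra K L] {C' : Scheme.{u}} {g : C' ⟶ C}
  {f' : C' ⟶ Spec (CommRingCat.of L)}
  (hpb : IsPullback g f' f (Spec.map (CommRingCat.ofHom (algebraMap K L))))

include hpb

theorem pull_injective [QuasiCompact f] [QuasiSeparated f] [IsIso f.appTop] :
    Function.Injective (pull g) := by
  rw [injective_iff_map_eq_one]
  intro c hc
  obtain ⟨M, hM, rfl⟩ := exists_mk c
  rw [pull_mk, mk_eq_one_iff] at hc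
  rw [mk_eq_one_iff]
  let _ : C.Over (Spec (CommRingCat.of K)) := ⟨f⟩
  have : IsIso (C ↘ Spec (CommRingCat.of K)).appTop := ‹IsIso f.appTop›
  have : CompactSpace C := (quasiCompact_iff_compactSpace f).mp inferInstance
  have : QuasiSeparatedSpace C := (quasiSeparated_iff_quasiSeparatedSpace f).mp inferInstance
  have h := Groth.Agent.S0232.result K C finite_HH_zero L C' g f' hpb M hM
    (Picfga.LineDescent.cl_eq_iff.mpr hc)
  exact Picfga.LineDescent.cl_eq_iff.mp h

end Inj

/-- If `pull g` is injective and hits all `n`-torsion classes, then the numbers of `n`-torsion classes agree. -/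
theorem card_eq {X Y : Scheme.{u}} (g : X ⟶ Y) (hg : Function.Injective (pull g)) (n : ℕ)
    (h : ∀ c : Pic X, c ^ n = 1 → ∃ b, pull g b = c) :
    Nat.card {c : Pic Y // c ^ n = 1} = Nat.card {c : Pic X // c ^ n = 1} := by
  refine Nat.card_eq_of_bijective (fun c => (⟨pull g c.1, by rw [← map_pow, c.2, map_one]⟩ :
    {c : Pic X // c ^ n = 1})) ⟨?_, ?_⟩
  · intro a b hab
    exact Subtype.ext (hg (congrArg Subtype.val hab))
  · rintro ⟨c, hc⟩
    obtain ⟨b, rfl⟩ := h c hc
    refine ⟨⟨b, hg ?_⟩, rfl⟩
    rw [map_pow, hc, map_one]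

section PI

variable {L : Type u} [Field L] [Algebra K L] {C' : Scheme.{u}} {g : C' ⟶ C}
  {f' : C' ⟶ Spec (CommRingCat.of L)}
  (hpb : IsPullback g f' f (Spec.map (CommRingCat.ofHom (algebraMap K L))))

include hpb

theorem exists_pull_of_charP [QuasiCompact f] [QuasiSeparated f] [IsIso f.appTop] (p : ℕ)
    [Fact p.Prime] [CharP K p] [IsPurelyInseparable K L] (n : ℕ) (hn : ¬ p ∣ n)
    (c : Pic C') (hc : c ^ n = 1) : ∃ b, pull g b = c := by
  have : CompactSpace C := (quasiCompact_iff_compactSpace f).mp inferInstance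
  have : QuasiSeparatedSpace C := (quasiSeparated_iff_quasiSeparatedSpace f).mp inferInstance
  let e : C' ≅ pullback f (Spec.map (CommRingCat.ofHom (algebraMap K L))) := hpb.isoPullback
  have he : e.hom ≫ pullback.fst f (Spec.map (CommRingCat.ofHom (algebraMap K L))) = g :=
    hpb.isoPullback_hom_fst
  have hc' : (pull e.inv c) ^ n = 1 := by rw [← map_pow, hc, map_one]
  have hpe : pull e.hom (pull e.inv c) = c := by
    rw [← pull_comp, e.hom_inv_id, pull_id]
  generalize pull e.inv c = d at hc' hpe
  obtain ⟨M, hM, rfl⟩ := exists_mk d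
  rw [← mk_tensorPow, mk_eq_one_iff] at hc'
  obtain ⟨ψ⟩ := hc'
  obtain ⟨N, hN, hNn, ⟨φ⟩⟩ :=
    Picfga.TorsionDescent.exists_descent_torsion f (p := p) n hn hM ψ
  refine ⟨mk N hN, ?_⟩
  rw [← hpe, ← he, pull_comp]
  congr 1
  rw [pull_mk]
  exact mk_congr φ

/-- An `n`-torsion class on `C_L`, `L/K` purely inseparable and `n` invertible in `K`, comes from `C`. -/
theorem exists_pull_of_purelyInseparable [QuasiCompact f] [QuasiSeparated f] [IsIso f.appTop]
    [IsPurelyInseparable K L] (n : ℕ) (hn : (n : K) ≠ 0)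
    (c : Pic C') (hc : c ^ n = 1) : ∃ b, pull g b = c := by
  obtain ⟨p, hp⟩ := CharP.exists K
  rcases CharP.char_is_prime_or_zero K p with h | h
  · have : Fact p.Prime := ⟨h⟩
    refine exists_pull_of_charP f hpb p n (fun hd => hn ?_) c hc
    exact (CharP.cast_eq_zero_iff K p n).mpr hd
  · subst h
    have : CharZero K := CharP.charP_to_charZero K
    have : Algebra.IsSeparable K L := inferInstance
    have hb : Function.Bijective (algebraMap K L) :=
      ⟨(algebraMap K L).injective, IsPurelyInseparable.surjective_algebraMap_of_isSeparable K L⟩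
    have : IsIso (CommRingCat.ofHom (algebraMap K L)) :=
      (ConcreteCategory.isIso_iff_bijective _).mpr hb
    have : IsIso (Spec.map (CommRingCat.ofHom (algebraMap K L))) := inferInstance
    have : IsIso g := hpb.isIso_fst_of_isIso
    refine ⟨pull (inv g) c, ?_⟩
    rw [← pull_comp, IsIso.hom_inv_id, pull_id]

end PI

end Groth.Agent.Models.H74.PicInj
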